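import Groth.Agent.Pi1A.PicExtDvr
import Groth.Agent.Etalg.RamTower
import Mathlib.FieldTheory.SeparableClosure
import Mathlib.RingTheory.Etale.Field
import Mathlib.RingTheory.Flat.Stability

/-!
# Local rings of a separable algebraic base change of a discrete valuation ring over a field

`Λ → Λ'` a flat local homomorphism of local rings, `Λ` a DVR which is an algebra over a field `K`, `Λ'` an
algebra over a separable algebraic extension `Ω` of `K`, every element of `Λ'` is a quotient of two elements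
coming from `Λ ⊗[K] Ω`. Then `Λ'` is a DVR, weakly unramified over `Λ` with separable algebraic residue field
extension.
-/

set_option autoImplicit false
universe u

open IsLocalRing TensorProduct

namespace Groth.Agent.Pi1.H392.LocSep

section

variable (K Ω Λ Λ' : Type u) [Field K] [Field Ω] [Algebra K Ω] [Algebra.IsSeparable K Ω]
  [CommRing Λ] [IsDomain Λ] [IsDiscreteValuationRing Λ] [Algebra K Λ]
  [CommRing Λ'] [IsLocalRing Λ'] [Algebra K Λ'] [Algebra Ω Λ'] [Algebra Λ Λ']
  [IsScalarTower K Ω Λ'] [IsScalarTower K Λ Λ'] [IsLocalHom (algebraMap Λ Λ')]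

/-- finitely many elements of `Λ ⊗[K] Ω` come from a finite separable subextension. -/
theorem exists_intermediateField (Λ : Type u) [CommRing Λ] [Algebra K Λ] (x y : Λ ⊗[K] Ω) :
    ∃ E : IntermediateField K Ω, FiniteDimensional K E ∧
      x ∈ Set.range (Algebra.TensorProduct.map (AlgHom.id K Λ) E.val) ∧
      y ∈ Set.range (Algebra.TensorProduct.map (AlgHom.id K Λ) E.val) := by
  have key : ∀ z : Λ ⊗[K] Ω, ∃ E : IntermediateField K Ω, FiniteDimensional K E ∧
      z ∈ Set.range (Algebra.TensorProduct.map (AlgHom.id K Λ) E.val) := by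
    intro z
    induction z using TensorProduct.induction_on with
    | zero => exact ⟨⊥, inferInstance, 0, map_zero _⟩
    | tmul a b =>
      refine ⟨IntermediateField.adjoin K {b}, ?_, a ⊗ₜ ⟨b, IntermediateField.subset_adjoin K _ rfl⟩, ?_⟩
      · exact IntermediateField.adjoin.finiteDimensional (Algebra.IsSeparable.isIntegral K b)
      · simp
    | add x y hx hy =>
      obtain ⟨E, hE, x', hx'⟩ := hx
      obtain ⟨F, hF, y', hy'⟩ := hy
      refine ⟨E ⊔ F, IntermediateField.finiteDimensional_sup E F, ?_⟩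
      have h1 : ∀ (E E' : IntermediateField K Ω) (h : E ≤ E') (w : Λ ⊗[K] E),
          Algebra.TensorProduct.map (AlgHom.id K Λ) E'.val
            (Algebra.TensorProduct.map (AlgHom.id K Λ) (IntermediateField.inclusion h) w) =
          Algebra.TensorProduct.map (AlgHom.id K Λ) E.val w := by
        intro E E' h w
        rw [← AlgHom.comp_apply, ← Algebra.TensorProduct.map_comp]
        rfl
      refine ⟨Algebra.TensorProduct.map (AlgHom.id K Λ) (IntermediateField.inclusion le_sup_left) x' +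
        Algebra.TensorProduct.map (AlgHom.id K Λ) (IntermediateField.inclusion le_sup_right) y', ?_⟩
      rw [map_add, h1, h1, hx', hy']
  obtain ⟨E, hE, x', hx'⟩ := key x
  obtain ⟨F, hF, y', hy'⟩ := key y
  have h1 : ∀ (E E' : IntermediateField K Ω) (h : E ≤ E') (w : Λ ⊗[K] E),
      Algebra.TensorProduct.map (AlgHom.id K Λ) E'.val
        (Algebra.TensorProduct.map (AlgHom.id K Λ) (IntermediateField.inclusion h) w) =
      Algebra.TensorProduct.map (AlgHom.id K Λ) E.val w := by
    intro E E' h w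
    rw [← AlgHom.comp_apply, ← Algebra.TensorProduct.map_comp]
    rfl
  exact ⟨E ⊔ F, IntermediateField.finiteDimensional_sup E F,
    ⟨_, (h1 E _ le_sup_left x').trans hx'⟩, ⟨_, (h1 F _ le_sup_right y').trans hy'⟩⟩

/-- the map `Λ ⊗[K] Ω → Λ'`. -/
noncomputable def prodMap : Λ ⊗[K] Ω →ₐ[K] Λ' :=
  Algebra.TensorProduct.lift (IsScalarTower.toAlgHom K Λ Λ') (IsScalarTower.toAlgHom K Ω Λ')
    (fun _ _ => Commute.all _ _)

omit [Algebra.IsSeparable K Ω] [IsDomain Λ] [IsDiscreteValuationRing Λ] [IsLocalRing Λ']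
  [IsLocalHom (algebraMap Λ Λ')] in
@[simp] theorem prodMap_tmul (a : Λ) (b : Ω) :
    prodMap K Ω Λ Λ' (a ⊗ₜ b) = algebraMap Λ Λ' a * algebraMap Ω Λ' b := by
  simp [prodMap]

omit [Algebra.IsSeparable K Ω] in
/-- the case of an etale algebra. -/
theorem exists_unit_mul_pow_etale (B : Type u) [CommRing B] [Algebra Λ B] [Algebra.Etale Λ B]
    (ψ : B →ₐ[Λ] Λ') {ϖ : Λ} (hϖ : Irreducible ϖ) (x : B) :
    ψ x = 0 ∨ ∃ (n : ℕ) (u : Λ'ˣ), ψ x = u * algebraMap Λ Λ' ϖ ^ n := by
  let q : Ideal B := (maximalIdeal Λ').comap ψ.toRingHom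
  have hq : q.comap (algebraMap Λ B) = maximalIdeal Λ := by
    rw [Ideal.comap_comap]
    have h1 : ψ.toRingHom.comp (algebraMap Λ B) = algebraMap Λ Λ' := ψ.comp_algebraMap
    rw [h1]
    exact ((local_hom_TFAE (algebraMap Λ Λ')).out 0 4 rfl rfl).mp inferInstance
  obtain ⟨hdom, hdvr, hinj, hloc⟩ := Pi1A.PicExtDvr.isDVR_localization_of_etale q hq
  have hψu : ∀ s : q.primeCompl, IsUnit (ψ.toRingHom s) := by
    rintro ⟨s, hs⟩
    by_contra hcon
    exact hs ((mem_maximalIdeal _).mpr hcon)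
  let ψ' : Localization.AtPrime q →+* Λ' := IsLocalization.lift hψu
  have hψ' : ∀ z, ψ' (algebraMap _ _ z) = ψ z := fun z => IsLocalization.lift_eq hψu z
  rw [← hψ']
  by_cases hx0 : algebraMap B (Localization.AtPrime q) x = 0
  · left; rw [hx0, map_zero]
  right
  have hmax : Irreducible (algebraMap Λ (Localization.AtPrime q) ϖ) := by
    rw [IsDiscreteValuationRing.irreducible_iff_uniformizer]
    have hFU : Algebra.FormallyUnramified B (Localization.AtPrime q) :=
      Algebra.FormallyUnramified.of_isLocalization q.primeCompl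
    have hFU' : Algebra.FormallyUnramified Λ (Localization.AtPrime q) :=
      Algebra.FormallyUnramified.comp Λ B _
    have : Algebra.EssFiniteType B (Localization.AtPrime q) :=
      Algebra.EssFiniteType.of_isLocalization _ q.primeCompl
    have : Algebra.EssFiniteType Λ (Localization.AtPrime q) := Algebra.EssFiniteType.comp Λ B _
    rw [← Algebra.FormallyUnramified.map_maximalIdeal (R := Λ) (S := Localization.AtPrime q),
      hϖ.maximalIdeal_eq, Ideal.map_span, Set.image_singleton]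
  obtain ⟨n, u, hu⟩ := IsDiscreteValuationRing.eq_unit_mul_pow_irreducible hx0 hmax
  refine ⟨n, Units.map ψ' u, ?_⟩
  have h2 : ψ' (algebraMap Λ (Localization.AtPrime q) ϖ) = algebraMap Λ Λ' ϖ := by
    rw [IsScalarTower.algebraMap_apply Λ B, hψ']
    exact ψ.commutes ϖ
  rw [hu, map_mul, map_pow, h2]
  rfl

/-- every element of the image of `Λ ⊗[K] Ω` is zero or a unit times a power of the uniformizer. -/
theorem exists_unit_mul_pow {ϖ : Λ} (hϖ : Irreducible ϖ) (x : Λ ⊗[K] Ω) :
    prodMap K Ω Λ Λ' x = 0 ∨ ∃ (n : ℕ) (u : Λ'ˣ), prodMap K Ω Λ Λ' x = u * algebraMap Λ Λ' ϖ ^ n := by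
  obtain ⟨E, hE, ⟨x', rfl⟩, -⟩ := exists_intermediateField K Ω Λ x x
  have hsep : Algebra.IsSeparable K E := inferInstance
  have hft : Algebra.FormallyEtale K E := (Algebra.FormallyEtale.iff_isSeparable K E).mpr hsep
  have hfp : Algebra.FinitePresentation K E := Algebra.FinitePresentation.of_finiteType.mp inferInstance
  have het : Algebra.Etale K E := ⟨hft, hfp⟩
  have het' : Algebra.Etale Λ (Λ ⊗[K] E) := inferInstance
  let ψ : Λ ⊗[K] E →ₐ[Λ] Λ' := Algebra.TensorProduct.lift (Algebra.ofId Λ Λ')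
    ((IsScalarTower.toAlgHom K Ω Λ').comp E.val) (fun _ _ => Commute.all _ _)
  have hψ : prodMap K Ω Λ Λ' (Algebra.TensorProduct.map (AlgHom.id K Λ) E.val x') = ψ x' := by
    induction x' using TensorProduct.induction_on with
    | zero => simp
    | tmul a b => simp [ψ, Algebra.ofId_apply]
    | add x y hx hy => rw [map_add, map_add, map_add, hx, hy]
  rw [hψ]
  exact exists_unit_mul_pow_etale Λ Λ' (Λ ⊗[K] E) ψ hϖ x'

variable (hfrac : ∀ x : Λ', ∃ a b : Λ ⊗[K] Ω, IsUnit (prodMap K Ω Λ Λ' b) ∧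
    x * prodMap K Ω Λ Λ' b = prodMap K Ω Λ Λ' a)

include hfrac in
theorem exists_unit_mul_pow' {ϖ : Λ} (hϖ : Irreducible ϖ) (x : Λ') (hx : x ≠ 0) :
    ∃ (n : ℕ) (u : Λ'ˣ), x = u * algebraMap Λ Λ' ϖ ^ n := by
  obtain ⟨a, b, ⟨v, hv⟩, hab⟩ := hfrac x
  rcases exists_unit_mul_pow K Ω Λ Λ' hϖ a with h | ⟨n, u, hu⟩
  · exfalso
    apply hx
    rw [h, ← hv] at hab
    exact (Units.mul_left_eq_zero v).mp hab
  · refine ⟨n, u * v⁻¹, ?_⟩
    rw [hu, ← hv] at hab
    have h1 : x = u * algebraMap Λ Λ' ϖ ^ n * ((v⁻¹ : Λ'ˣ) : Λ') := by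
      rw [← hab, mul_assoc, Units.mul_inv, mul_one]
    rw [h1, Units.val_mul]
    ring

include hfrac in
theorem isDomain [Module.Flat Λ Λ'] : IsDomain Λ' := by
  obtain ⟨ϖ, hϖ⟩ := IsDiscreteValuationRing.exists_irreducible Λ
  have hreg : ∀ n : ℕ, algebraMap Λ Λ' ϖ ^ n ≠ 0 := by
    intro n hn
    have h0 : IsSMulRegular Λ (ϖ ^ n) := (IsRegular.of_ne_zero (pow_ne_zero n hϖ.ne_zero)).left.isSMulRegular
    have h1 : IsSMulRegular Λ' (algebraMap Λ Λ' (ϖ ^ n)) := h0.of_flat
    have : (algebraMap Λ Λ' (ϖ ^ n)) • (1 : Λ') = (algebraMap Λ Λ' (ϖ ^ n)) • (0 : Λ') := by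
      rw [smul_zero, map_pow, hn, zero_smul]
    exact one_ne_zero (h1 this)
  have : NoZeroDivisors Λ' := by
    refine ⟨fun {a b} hab => ?_⟩
    by_contra hne
    push Not at hne
    obtain ⟨n, u, ha⟩ := exists_unit_mul_pow' K Ω Λ Λ' hfrac hϖ a hne.1
    obtain ⟨m, v, hb⟩ := exists_unit_mul_pow' K Ω Λ Λ' hfrac hϖ b hne.2
    apply hreg (n + m)
    have h1 : ((u * v : Λ'ˣ) : Λ') * algebraMap Λ Λ' ϖ ^ (n + m) = 0 := by
      rw [← hab, ha, hb, Units.val_mul]; ring
    exact (Units.mul_right_eq_zero _).mp h1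
  exact NoZeroDivisors.to_isDomain Λ'

include hfrac in
theorem maximalIdeal_eq {ϖ : Λ} (hϖ : Irreducible ϖ) :
    maximalIdeal Λ' = Ideal.span {algebraMap Λ Λ' ϖ} := by
  refine le_antisymm (fun x hx => ?_) ?_
  · by_cases hx0 : x = 0
    · rw [hx0]; exact zero_mem _
    obtain ⟨n, u, rfl⟩ := exists_unit_mul_pow' K Ω Λ Λ' hfrac hϖ x hx0
    rcases n with _ | n
    · exfalso
      rw [pow_zero, mul_one] at hx
      exact (mem_maximalIdeal _).mp hx u.isUnit
    · rw [pow_succ, ← mul_assoc]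
      exact Ideal.mul_mem_left _ _ (Ideal.mem_span_singleton_self _)
  · rw [Ideal.span_singleton_le_iff_mem]
    exact (mem_maximalIdeal _).mpr ((map_mem_nonunits_iff (algebraMap Λ Λ') ϖ).mpr hϖ.not_isUnit)

include hfrac in
theorem isDiscreteValuationRing [IsDomain Λ'] [Module.Flat Λ Λ'] : IsDiscreteValuationRing Λ' := by
  obtain ⟨ϖ, hϖ⟩ := IsDiscreteValuationRing.exists_irreducible Λ
  have hmax := maximalIdeal_eq K Ω Λ Λ' hfrac hϖ
  have hϖ0 : algebraMap Λ Λ' ϖ ≠ 0 := by
    have h0 : IsSMulRegular Λ ϖ := (IsRegular.of_ne_zero hϖ.ne_zero).left.isSMulRegular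
    have h1 : IsSMulRegular Λ' (algebraMap Λ Λ' ϖ) := h0.of_flat
    intro h
    have : (algebraMap Λ Λ' ϖ) • (1 : Λ') = (algebraMap Λ Λ' ϖ) • (0 : Λ') := by
      rw [smul_zero, h, zero_smul]
    exact one_ne_zero (h1 this)
  have hirr : Irreducible (algebraMap Λ Λ' ϖ) := by
    have hp : Prime (algebraMap Λ Λ' ϖ) := by
      rw [← Ideal.span_singleton_prime hϖ0, ← hmax]
      infer_instance
    exact hp.irreducible
  refine IsDiscreteValuationRing.ofHasUnitMulPowIrreducibleFactorization ⟨_, hirr, fun {x} hx => ?_⟩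
  obtain ⟨n, u, rfl⟩ := exists_unit_mul_pow' K Ω Λ Λ' hfrac hϖ x hx
  exact ⟨n, u, mul_comm _ _⟩

include hfrac in
theorem isWeaklyUnramified : EtRam.IsWeaklyUnramified Λ Λ' := by
  obtain ⟨ϖ, hϖ⟩ := IsDiscreteValuationRing.exists_irreducible Λ
  rw [EtRam.IsWeaklyUnramified, maximalIdeal_eq K Ω Λ Λ' hfrac hϖ, hϖ.maximalIdeal_eq, Ideal.map_span,
    Set.image_singleton]

include hfrac in
omit [IsDomain Λ] [IsDiscreteValuationRing Λ] in
theorem isSeparable_residueField [IsLocalRing Λ] :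
    Algebra.IsSeparable (ResidueField Λ) (ResidueField Λ') := by
  let S := separableClosure (ResidueField Λ) (ResidueField Λ')
  have h1 : ∀ a : Λ, residue Λ' (algebraMap Λ Λ' a) ∈ S := fun a => by
    have : residue Λ' (algebraMap Λ Λ' a) = algebraMap (ResidueField Λ) (ResidueField Λ') (residue Λ a) := rfl
    rw [this]
    exact S.algebraMap_mem _
  have h2 : ∀ b : Ω, residue Λ' (algebraMap Ω Λ' b) ∈ S := fun b => by
    rw [mem_separableClosure_iff]
    have hb : IsSeparable K b := Algebra.IsSeparable.isSeparable K b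
    let _ : Algebra K (ResidueField Λ) := ((residue Λ).comp (algebraMap K Λ)).toAlgebra
    let _ : Algebra K (ResidueField Λ') :=
      ((algebraMap (ResidueField Λ) (ResidueField Λ')).comp (algebraMap K (ResidueField Λ))).toAlgebra
    have : IsScalarTower K (ResidueField Λ) (ResidueField Λ') := IsScalarTower.of_algebraMap_eq' rfl
    let φ : Ω →ₐ[K] ResidueField Λ' :=
      { (residue Λ').comp (algebraMap Ω Λ') with
        commutes' := fun k => by
          change residue Λ' (algebraMap Ω Λ' (algebraMap K Ω k)) = residue Λ' (algebraMap Λ Λ' (algebraMap K Λ k))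
          rw [← IsScalarTower.algebraMap_apply, ← IsScalarTower.algebraMap_apply] }
    have h3 : IsSeparable K (φ b) := hb.map φ φ.toRingHom.injective
    exact h3.tower_top (ResidueField Λ)
  have h3 : ∀ z : Λ ⊗[K] Ω, residue Λ' (prodMap K Ω Λ Λ' z) ∈ S := by
    intro z
    induction z using TensorProduct.induction_on with
    | zero => rw [map_zero, map_zero]; exact S.zero_mem
    | tmul a b => rw [prodMap_tmul, map_mul]; exact S.mul_mem (h1 a) (h2 b)
    | add x y hx hy => rw [map_add, map_add]; exact S.add_mem hx hy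
  rw [← separableClosure.eq_top_iff]
  rw [eq_top_iff]
  intro z _
  obtain ⟨x, rfl⟩ := residue_surjective z
  obtain ⟨a, b, hb, hab⟩ := hfrac x
  have hb' : residue Λ' (prodMap K Ω Λ Λ' b) ≠ 0 := by
    rw [Ne, residue_eq_zero_iff, mem_maximalIdeal, mem_nonunits_iff, not_not]
    exact hb
  have h4 : residue Λ' x = residue Λ' (prodMap K Ω Λ Λ' a) / residue Λ' (prodMap K Ω Λ Λ' b) := by
    rw [eq_div_iff hb', ← map_mul, hab]
  rw [h4]
  exact S.div_mem (h3 a) (h3 b)

end

end Groth.Agent.Pi1.H392.LocSep
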