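import Groth.Agent.Pi1.H392.TameTransfer
import Groth.Agent.CycB.LocQuot
import Groth.Agent.CycB.FinCodimOne
import Mathlib.AlgebraicGeometry.Morphisms.Etale
import Mathlib.AlgebraicGeometry.ResidueField
import Mathlib.RingTheory.Unramified.Field

/-!
# The map `O_{X,y} → κ(w)` attached to `g : V ⟶ X`, `w : V` with `g w ⤳ y`
-/

set_option autoImplicit false
universe u

open CategoryTheory AlgebraicGeometry IsLocalRing

namespace Groth.Agent.Pi1.H392.PtMap

variable {V X : Scheme.{u}} (g : V ⟶ X)

/-- the composite `O_{X,y} → O_{X,g w} → κ(g w) → κ(w)`. -/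
noncomputable def resMap (w : V) (y : X) (h : g.base w ⤳ y) : X.presheaf.stalk y →+* V.residueField w :=
  (g.residueFieldMap w).hom.comp ((X.residue _).hom.comp (X.presheaf.stalkSpecializes h).hom)

theorem Spec_map_resMap (w : V) (y : X) (h : g.base w ⤳ y) :
    Spec.map (CommRingCat.ofHom (resMap g w y h)) ≫ X.fromSpecStalk y = V.fromSpecResidueField w ≫ g := by
  have h1 : CommRingCat.ofHom (resMap g w y h) =
      X.presheaf.stalkSpecializes h ≫ X.residue _ ≫ g.residueFieldMap w := rfl
  rw [h1, Spec.map_comp, Spec.map_comp, Category.assoc, Category.assoc,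
    Scheme.SpecMap_stalkSpecializes_fromSpecStalk]
  exact g.SpecMap_residueFieldMap_fromSpecResidueField w

/-- bundled version of `resMap`. -/
noncomputable def resHom (w : V) (y : X) (h : g.base w ⤳ y) : X.presheaf.stalk y ⟶ V.residueField w :=
  X.presheaf.stalkSpecializes h ≫ X.residue _ ≫ g.residueFieldMap w

theorem hom_resHom (w : V) (y : X) (h : g.base w ⤳ y) : (resHom g w y h).hom = resMap g w y h := rfl

theorem Spec_map_resHom (w : V) (y : X) (h : g.base w ⤳ y) :
    Spec.map (resHom g w y h) ≫ X.fromSpecStalk y = V.fromSpecResidueField w ≫ g := by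
  rw [resHom, Spec.map_comp, Spec.map_comp, Category.assoc, Category.assoc,
    Scheme.SpecMap_stalkSpecializes_fromSpecStalk]
  exact g.SpecMap_residueFieldMap_fromSpecResidueField w

/-- compatibility of `resHom` with a commutative square. -/
theorem Spec_map_resHom_comp {X' V' : Scheme.{u}} (g' : V' ⟶ X') (q : X' ⟶ X) (qV : V' ⟶ V)
    (hq : qV ≫ g = g' ≫ q) (w' : V') (y : X) (h : g.base (qV w') ⤳ y) :
    Spec.map (resHom g (qV w') y h ≫ qV.residueFieldMap w') ≫ X.fromSpecStalk y =
      V'.fromSpecResidueField w' ≫ g' ≫ q := by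
  rw [Spec.map_comp, Category.assoc, Spec_map_resHom, ← Category.assoc,
    qV.SpecMap_residueFieldMap_fromSpecResidueField, Category.assoc, hq]

/-- compatibility of `resHom` with a commutative square, at corresponding points. -/
theorem resHom_comp {X' V' : Scheme.{u}} (g' : V' ⟶ X') (q : X' ⟶ X) (qV : V' ⟶ V)
    (hq : qV ≫ g = g' ≫ q) (w' : V') (y' : X') (h : g.base (qV w') ⤳ q y') (h' : g'.base w' ⤳ y') :
    resHom g (qV w') (q y') h ≫ qV.residueFieldMap w' = q.stalkMap y' ≫ resHom g' w' y' h' := by
  apply Spec.map_injective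
  rw [← cancel_mono (X.fromSpecStalk (q y')), Spec_map_resHom_comp g g' q qV hq, Spec.map_comp,
    Category.assoc, Scheme.SpecMap_stalkMap_fromSpecStalk, ← Category.assoc, ← Category.assoc,
    Spec_map_resHom]

/-- a ring map `θ : O_{X,y} → κ(w)` over `g` is `resMap`. -/
theorem eq_resMap (w : V) (y : X) (h : g.base w ⤳ y) (θ : X.presheaf.stalk y →+* V.residueField w)
    (hθ : Spec.map (CommRingCat.ofHom θ) ≫ X.fromSpecStalk y = V.fromSpecResidueField w ≫ g) :
    θ = resMap g w y h := by
  rw [← Spec_map_resMap g w y h, cancel_mono] at hθ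
  exact congrArg CommRingCat.Hom.hom (Spec.map_injective hθ)

/-- the generic residue field is the fraction field of the DVR `O_{X,y}`. -/
theorem isFractionRing_residueField {x y : X} (h : x ⤳ y) (hne : x ≠ y) [IsDomain (X.presheaf.stalk y)]
    [IsDiscreteValuationRing (X.presheaf.stalk y)] :
    letI : Algebra (X.presheaf.stalk y) (X.residueField x) :=
      ((X.residue x).hom.comp (X.presheaf.stalkSpecializes h).hom).toAlgebra
    IsFractionRing (X.presheaf.stalk y) (X.residueField x) := by
  have hP : RingHom.ker (Cyc.specMap y x h) = ⊥ := by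
    have hpr : (RingHom.ker (Cyc.specMap y x h)).IsPrime := RingHom.ker_isPrime _
    by_contra hne'
    apply hne
    refine CycB.FinCodimOne.eq_of_comap_stalkSpecializes_eq h ?_
    have h1 : (RingHom.ker (Cyc.specMap y x h)).IsMaximal := hpr.isMaximal hne'
    rw [← IsLocalRing.eq_maximalIdeal h1]
    ext a
    rw [CycB.LocQuot.mem_ker_specMap_iff]
    rfl
  let _ : Algebra (X.presheaf.stalk y) (X.residueField x) :=
      ((X.residue x).hom.comp (X.presheaf.stalkSpecializes h).hom).toAlgebra
  have hinj : Function.Injective (algebraMap (X.presheaf.stalk y) (X.residueField x)) := by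
    rw [RingHom.injective_iff_ker_eq_bot]
    exact hP
  have : FaithfulSMul (X.presheaf.stalk y) (X.residueField x) :=
    (faithfulSMul_iff_algebraMap_injective _ _).mpr hinj
  refine IsFractionRing.of_field _ _ fun z => ?_
  obtain ⟨a, b, hab⟩ := IsFractionRing.div_surjective (Cyc.LocQuot y x h) z
  obtain ⟨a, rfl⟩ := Ideal.Quotient.mk_surjective a
  obtain ⟨b, rfl⟩ := Ideal.Quotient.mk_surjective b
  exact ⟨a, b, hab.2.symm⟩

/-- Residue field extensions of an étale morphism are finite separable. -/
theorem finite_separable [Etale g] (w : V) :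
    letI := (g.residueFieldMap w).hom.toAlgebra
    Module.Finite (X.residueField (g w)) (V.residueField w) ∧
      Algebra.IsSeparable (X.residueField (g w)) (V.residueField w) := by
  let _ := (g.residueFieldMap w).hom.toAlgebra
  have h1 : Algebra.IsSeparable (X.residueField (g w)) (V.residueField w) := inferInstance
  refine ⟨?_, h1⟩
  have h2 : (g.stalkMap w).hom.EssFiniteType := LocallyOfFiniteType.stalkMap g w
  have h3 : ((V.residue w).hom.comp (g.stalkMap w).hom).EssFiniteType := by
    refine RingHom.EssFiniteType.comp h2 ?_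
    refine RingHom.FiniteType.essFiniteType ?_
    exact RingHom.FiniteType.of_surjective _ (V.residue_surjective w)
  have h4 : (V.residue w).hom.comp (g.stalkMap w).hom =
      (g.residueFieldMap w).hom.comp (X.residue (g w)).hom := by
    have := Scheme.residue_residueFieldMap g w
    exact (congrArg CommRingCat.Hom.hom this).symm
  rw [h4] at h3
  have h5 : (g.residueFieldMap w).hom.EssFiniteType := RingHom.EssFiniteType.of_comp (X.residue (g w)).hom h3
  have h6 : Algebra.EssFiniteType (X.residueField (g w)) (V.residueField w) := by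
    rw [← RingHom.essFiniteType_algebraMap]; exact h5
  have h7 : Algebra.FormallyUnramified (X.residueField (g w)) (V.residueField w) :=
    Algebra.FormallyUnramified.of_isSeparable _ _
  exact Algebra.FormallyUnramified.finite_of_free _ _

end Groth.Agent.Pi1.H392.PtMap
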