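import Groth.Agent.Pi1.H392.PtMap
import Groth.Agent.Etalg.RamDVR2
import Mathlib.AlgebraicGeometry.ValuativeCriterion

/-!
# Descending tameness along a universally closed morphism which is weakly unramified at DVRs
-/

set_option autoImplicit false
universe u

open CategoryTheory AlgebraicGeometry IsLocalRing EtRam Groth.Agent.Etalg.RamBasic

namespace Groth.Agent.Pi1.H392.PtTransfer

open PtMap TameTransfer

/-- A valuation subring of `κ(w)` dominating the DVR `O_{X,y}` is a DVR, for `g : V ⟶ X` étale. -/
theorem isDVR_of_dominates {V X : Scheme.{u}} (g : V ⟶ X) [Etale g] (w : V) (y : X) (h : g.base w ⤳ y)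
    (hne : g.base w ≠ y) [IsDomain (X.presheaf.stalk y)] [IsDiscreteValuationRing (X.presheaf.stalk y)]
    (W : ValuationSubring (V.residueField w)) (hW : Dominates (X.presheaf.stalk y) (resMap g w y h) W) :
    IsDiscreteValuationRing W := by
  let _ : Algebra (X.residueField (g w)) (V.residueField w) := (g.residueFieldMap w).hom.toAlgebra
  let _ : Algebra (X.presheaf.stalk y) (X.residueField (g w)) :=
    ((X.residue (g w)).hom.comp (X.presheaf.stalkSpecializes h).hom).toAlgebra
  have h1 : IsFractionRing (X.presheaf.stalk y) (X.residueField (g w)) := isFractionRing_residueField h hne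
  have h2 : FiniteDimensional (X.residueField (g w)) (V.residueField w) := (finite_separable g w).1
  exact Etalg.RamDVR2.isDVR_of_dominates (A := X.presheaf.stalk y) (K := X.residueField (g w))
    (L := V.residueField w) (W := W) hW

theorem injective_resMap {V X : Scheme.{u}} (g : V ⟶ X) (w : V) (y : X) (h : g.base w ⤳ y)
    (hne : g.base w ≠ y) [IsDomain (X.presheaf.stalk y)] [IsDiscreteValuationRing (X.presheaf.stalk y)] :
    Function.Injective (resMap g w y h) := by
  let _ : Algebra (X.presheaf.stalk y) (X.residueField (g w)) :=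
    ((X.residue (g w)).hom.comp (X.presheaf.stalkSpecializes h).hom).toAlgebra
  have h1 : IsFractionRing (X.presheaf.stalk y) (X.residueField (g w)) := isFractionRing_residueField h hne
  exact (g.residueFieldMap w).hom.injective.comp
    (IsFractionRing.injective (X.presheaf.stalk y) (X.residueField (g w)))

/-- a morphism from the spectrum of a local ring comes from a local homomorphism from the stalk. -/
theorem exists_localHom {W : Type u} [CommRing W] [IsLocalRing W] {X : Scheme.{u}}
    (l : Spec (CommRingCat.of W) ⟶ X) (y : X) (hy : l (closedPoint W) = y) :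
    ∃ ψ : X.presheaf.stalk y →+* W, IsLocalHom ψ ∧
      Spec.map (CommRingCat.ofHom ψ) ≫ X.fromSpecStalk y = l := by
  subst hy
  exact ⟨(Scheme.stalkClosedPointTo l).hom, inferInstance, Scheme.Spec_stalkClosedPointTo_fromSpecStalk l⟩

variable {X X' V V' : Scheme.{u}} (g : V ⟶ X) (g' : V' ⟶ X') (q : X' ⟶ X) (qV : V' ⟶ V)

/-- **Descent of tameness.** -/
theorem tame_descend (hq : qV ≫ g = g' ≫ q) [Etale g'] [UniversallyClosed q]
    (hqV : Function.Surjective qV.base)
    (hst : ∀ (y' : X') [IsDomain (X.presheaf.stalk (q y'))],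
      IsDiscreteValuationRing (X.presheaf.stalk (q y')) →
      ∃ _ : IsDomain (X'.presheaf.stalk y'), IsDiscreteValuationRing (X'.presheaf.stalk y') ∧
        letI := (q.stalkMap y').hom.toAlgebra
        IsWeaklyUnramified (X.presheaf.stalk (q y')) (X'.presheaf.stalk y') ∧
        ∀ [IsLocalHom (algebraMap (X.presheaf.stalk (q y')) (X'.presheaf.stalk y'))],
          Algebra.IsSeparable (ResidueField (X.presheaf.stalk (q y'))) (ResidueField (X'.presheaf.stalk y')))
    (H : ∀ (y' : X') [IsDomain (X'.presheaf.stalk y')], IsDiscreteValuationRing (X'.presheaf.stalk y') →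
      ∀ (w' : V') (h : g'.base w' ⤳ y'), g'.base w' ≠ y' →
        IsTamelyRamified (X'.presheaf.stalk y') (resMap g' w' y' h))
    (y : X) [IsDomain (X.presheaf.stalk y)] (hy : IsDiscreteValuationRing (X.presheaf.stalk y))
    (w : V) (h : g.base w ⤳ y) (hne : g.base w ≠ y) :
    IsTamelyRamified (X.presheaf.stalk y) (resMap g w y h) := by
  rw [isTamelyRamified_iff]
  intro W hW
  obtain ⟨w', rfl⟩ := hqV w
  let φ : V.residueField (qV w') →+* V'.residueField w' := (qV.residueFieldMap w').hom
  obtain ⟨W', hW'⟩ := exists_comap_eq φ W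
  let θ : X.presheaf.stalk y →+* W' := (φ.comp (resMap g (qV w') y h)).codRestrict W' (fun a => by
    have := hW.1 a
    rw [← hW'] at this
    exact this)
  have hdomθ : Dominates (X.presheaf.stalk y) (φ.comp (resMap g (qV w') y h)) W' :=
    Dominates.comap_eq_trans φ hW hW'
  have hθ : IsLocalHom θ := Dominates.isLocalHom hdomθ
  let i₁ : Spec (.of (V'.residueField w')) ⟶ X' := V'.fromSpecResidueField w' ≫ g'
  let i₂ : Spec (.of W') ⟶ X := Spec.map (CommRingCat.ofHom θ) ≫ X.fromSpecStalk y
  have hsq : CommSq i₁ (Spec.map (CommRingCat.ofHom (algebraMap W' (V'.residueField w')))) q i₂ := by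
    refine ⟨?_⟩
    have h1 : CommRingCat.ofHom θ ≫ CommRingCat.ofHom (algebraMap W' (V'.residueField w')) =
        resHom g (qV w') y h ≫ qV.residueFieldMap w' := rfl
    have h2 := Spec_map_resHom_comp g g' q qV hq w' y h
    rw [← h1] at h2
    simp only [i₁, i₂]
    rw [← Spec.map_comp_assoc, h2, Category.assoc]
  have hval : ValuativeCriterion.Existence q :=
    ((UniversallyClosed.eq_valuativeCriterion.le _ _ _) ‹UniversallyClosed q›).1
  obtain ⟨⟨l, hl1, hl2⟩⟩ := hval ⟨W', V'.residueField w', i₁, i₂, hsq⟩
  simp only at hl1 hl2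
  have hi₂ : i₂ (closedPoint W') = y := by
    simp only [i₂]
    rw [Scheme.Hom.comp_apply]
    have : (Spec.map (CommRingCat.ofHom θ)) (closedPoint W') = closedPoint _ := by
      exact Spec_closedPoint (f := CommRingCat.ofHom θ)
    rw [this, Scheme.fromSpecStalk_closedPoint]
  obtain ⟨y', hy'⟩ : ∃ y', l (closedPoint W') = y' := ⟨_, rfl⟩
  have hqy : q y' = y := by
    rw [← hi₂, ← hl2, Scheme.Hom.comp_apply, hy']
  subst hqy
  -- the local homomorphism `O_{X',y'} → W'`
  obtain ⟨ψ, hψ, hψl⟩ := exists_localHom l y' hy'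
  have hspec : g'.base w' ⤳ y' := by
    have h1 : l (Spec.map (CommRingCat.ofHom (algebraMap W' (V'.residueField w'))) default) = g' w' := by
      rw [← Scheme.Hom.comp_apply, hl1]
      simp only [i₁]
      rw [Scheme.Hom.comp_apply, Scheme.fromSpecResidueField_apply]
    change g' w' ⤳ y'
    rw [← h1, ← hy']
    exact (IsLocalRing.specializes_closedPoint _).map l.continuous
  have hne' : g'.base w' ≠ y' := by
    intro he
    apply hne
    rw [← Scheme.Hom.comp_apply, hq, Scheme.Hom.comp_apply]
    exact congrArg q he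
  obtain ⟨hdom', hdvr', hwu, hsep⟩ := hst y' hy
  have hθ' : ∀ a, ((ψ a : W') : V'.residueField w') = resMap g' w' y' hspec a := by
    have h1 : (algebraMap W' (V'.residueField w')).comp ψ = resMap g' w' y' hspec := by
      refine eq_resMap g' w' y' hspec _ ?_
      rw [CommRingCat.ofHom_comp, Spec.map_comp, Category.assoc, hψl, hl1]
    exact fun a => RingHom.congr_fun h1 a
  have hdomW' : Dominates (X'.presheaf.stalk y') (resMap g' w' y' hspec) W' := by
    rw [dominates_iff_isLocalHom]
    refine ⟨fun a => ?_, ?_⟩
    · rw [← hθ' a]; exact (ψ a).2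
    · have : (resMap g' w' y' hspec).codRestrict W' (fun a => by rw [← hθ' a]; exact (ψ a).2) = ψ := by
        ext a
        exact (hθ' a).symm
      rw [this]; exact hψ
  have htame := (isTamelyRamified_iff _ _).mp (H y' hdvr' w' hspec hne') W' hdomW'
  let _ : Algebra (X.presheaf.stalk (q y')) (X'.presheaf.stalk y') := (q.stalkMap y').hom.toAlgebra
  have hloc : IsLocalHom (algebraMap (X.presheaf.stalk (q y')) (X'.presheaf.stalk y')) :=
    inferInstanceAs (IsLocalHom (q.stalkMap y').hom)
  refine tameVal_comap φ (resMap g (qV w') (q y') h) (resMap g' w' y' hspec) hwu hsep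
    (injective_resMap g (qV w') (q y') h hne) (injective_resMap g' w' y' hspec hne') ?_ W' hdomW'
    (isDVR_of_dominates g' w' y' hspec hne' W' hdomW') htame W hW' hW
  -- commutativity of the square
  exact (congrArg CommRingCat.Hom.hom (resHom_comp g g' q qV hq w' y' h hspec)).symm

end Groth.Agent.Pi1.H392.PtTransfer
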