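import Groth.Agent.Pi1.H392.LocSep
import Groth.Agent.Pi1C.EtTraceSch
import Mathlib.AlgebraicGeometry.Morphisms.Flat
import Mathlib.AlgebraicGeometry.Morphisms.Integral
import Mathlib.AlgebraicGeometry.AffineScheme

/-!
# Stalks of the base change of a scheme over a field along a separable algebraic field extension
-/

set_option autoImplicit false
universe u

open CategoryTheory CategoryTheory.Limits AlgebraicGeometry IsLocalRing TensorProduct

namespace Groth.Agent.Pi1.H392.StalkSep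

variable {K Ω : Type u} [Field K] [Field Ω] [Algebra K Ω] {Z Z' : Scheme.{u}}
  (p : Z ⟶ Spec (CommRingCat.of K)) (p' : Z' ⟶ Spec (CommRingCat.of Ω)) (q : Z' ⟶ Z)
  (sq : IsPullback q p' p (Spec.map (CommRingCat.ofHom (algebraMap K Ω))))

/-- the map `K → O_{Z,z}` -/
noncomputable def toStalk {K : Type u} [CommRing K] {Z : Scheme.{u}} (p : Z ⟶ Spec (CommRingCat.of K)) (z : Z) :
    CommRingCat.of K ⟶ Z.presheaf.stalk z :=
  (Scheme.ΓSpecIso (.of K)).inv ≫ p.appTop ≫ Z.presheaf.germ ⊤ z trivial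

include sq in
theorem toStalk_comp (y' : Z') :
    toStalk p (q y') ≫ q.stalkMap y' = CommRingCat.ofHom (algebraMap K Ω) ≫ toStalk p' y' := by
  have h1 : p.appTop ≫ q.appTop = (Spec.map (CommRingCat.ofHom (algebraMap K Ω))).appTop ≫ p'.appTop := by
    rw [← Scheme.Hom.comp_appTop, ← Scheme.Hom.comp_appTop, sq.w]
  have h2 : Z.presheaf.germ ⊤ (q y') trivial ≫ q.stalkMap y' = q.appTop ≫ Z'.presheaf.germ ⊤ y' trivial :=
    Scheme.Hom.germ_stalkMap q ⊤ y' trivial
  unfold toStalk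
  rw [Category.assoc, Category.assoc, h2, ← Category.assoc p.appTop, h1, Category.assoc,
    ← Category.assoc, ← Scheme.ΓSpecIso_inv_naturality, Category.assoc]

include sq in
theorem exists_frac (y' : Z') :
    letI : Algebra K (Z.presheaf.stalk (q y')) := (toStalk p (q y')).hom.toAlgebra
    letI : Algebra Ω (Z'.presheaf.stalk y') := (toStalk p' y').hom.toAlgebra
    letI : Algebra K (Z'.presheaf.stalk y') := ((toStalk p' y').hom.comp (algebraMap K Ω)).toAlgebra
    letI : Algebra (Z.presheaf.stalk (q y')) (Z'.presheaf.stalk y') := (q.stalkMap y').hom.toAlgebra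
    ∀ [IsScalarTower K Ω (Z'.presheaf.stalk y')]
      [IsScalarTower K (Z.presheaf.stalk (q y')) (Z'.presheaf.stalk y')],
    ∀ x : Z'.presheaf.stalk y', ∃ a b : Z.presheaf.stalk (q y') ⊗[K] Ω,
      IsUnit (LocSep.prodMap K Ω (Z.presheaf.stalk (q y')) (Z'.presheaf.stalk y') b) ∧
      x * LocSep.prodMap K Ω (Z.presheaf.stalk (q y')) (Z'.presheaf.stalk y') b =
        LocSep.prodMap K Ω (Z.presheaf.stalk (q y')) (Z'.presheaf.stalk y') a := by
  let _ : Algebra K (Z.presheaf.stalk (q y')) := (toStalk p (q y')).hom.toAlgebra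
  let _ : Algebra Ω (Z'.presheaf.stalk y') := (toStalk p' y').hom.toAlgebra
  let _ : Algebra K (Z'.presheaf.stalk y') := ((toStalk p' y').hom.comp (algebraMap K Ω)).toAlgebra
  let _ : Algebra (Z.presheaf.stalk (q y')) (Z'.presheaf.stalk y') := (q.stalkMap y').hom.toAlgebra
  intro _ _ x
  let S : Subring (Z'.presheaf.stalk y') :=
    (LocSep.prodMap K Ω (Z.presheaf.stalk (q y')) (Z'.presheaf.stalk y')).toRingHom.range
  obtain ⟨U, hU, hyU, -⟩ := exists_isAffineOpen_mem_and_subset (X := Z) (x := q y') (U := ⊤) trivial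
  have hV : IsAffineOpen (q ⁻¹ᵁ U) := by
    have : IsAffineHom q := MorphismProperty.of_isPullback sq.flip inferInstance
    exact hU.preimage q
  have e : U ≤ p ⁻¹ᵁ ⊤ := le_top
  have e' : q ⁻¹ᵁ U ≤ p' ⁻¹ᵁ (Spec.map (CommRingCat.ofHom (algebraMap K Ω)) ⁻¹ᵁ ⊤) := le_top
  have hpo := Pi1C.EtTraceSch.isPushout_appLE (g' := p') (h' := q) (h := Spec.map (CommRingCat.ofHom (algebraMap K Ω)))
    (g := p) sq.flip (isAffineOpen_top _) hU e e'
  have hgen := CommRingCat.closure_range_union_range_eq_top_of_isPushout hpo.flip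
  have hy' : y' ∈ q ⁻¹ᵁ U := hyU
  have key : ∀ s : Γ(Z', q ⁻¹ᵁ U), (Z'.presheaf.germ (q ⁻¹ᵁ U) y' hy').hom s ∈ S := by
    have h1 : (⊤ : Subring Γ(Z', q ⁻¹ᵁ U)) ≤ S.comap (Z'.presheaf.germ (q ⁻¹ᵁ U) y' hy').hom := by
      rw [← hgen, Subring.closure_le]
      rintro _ (⟨b, rfl⟩ | ⟨a, rfl⟩)
      · refine ⟨1 ⊗ₜ ((Scheme.ΓSpecIso (.of Ω)).hom b), ?_⟩
        change LocSep.prodMap K Ω _ _ _ = _
        rw [LocSep.prodMap_tmul, map_one, one_mul]
        change (toStalk p' y').hom ((Scheme.ΓSpecIso (.of Ω)).hom b) = _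
        have h2 : (Scheme.ΓSpecIso (.of Ω)).hom ≫ toStalk p' y' =
            p'.appLE ⊤ (q ⁻¹ᵁ U) e' ≫ Z'.presheaf.germ (q ⁻¹ᵁ U) y' hy' := by
          rw [toStalk, Iso.hom_inv_id_assoc, Scheme.Hom.appLE, Category.assoc, TopCat.Presheaf.germ_res]
          rfl
        exact ConcreteCategory.congr_hom h2 b
      · refine ⟨(Z.presheaf.germ U (q y') hyU).hom a ⊗ₜ 1, ?_⟩
        change LocSep.prodMap K Ω _ _ _ = _
        rw [LocSep.prodMap_tmul, map_one, mul_one]
        exact ConcreteCategory.congr_hom (Scheme.Hom.germ_stalkMap q U y' hyU) a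
    exact fun s => h1 (Subring.mem_top s)
  let _ : Algebra Γ(Z', q ⁻¹ᵁ U) (Z'.presheaf.stalk y') := (Z'.presheaf.germ (q ⁻¹ᵁ U) y' hy').hom.toAlgebra
  have hloc : IsLocalization.AtPrime (Z'.presheaf.stalk y') (hV.primeIdealOf ⟨y', hy'⟩).asIdeal :=
    hV.isLocalization_stalk ⟨y', hy'⟩
  obtain ⟨⟨a, s⟩, has⟩ := IsLocalization.surj (hV.primeIdealOf ⟨y', hy'⟩).asIdeal.primeCompl x
  obtain ⟨a', ha'⟩ := key a
  obtain ⟨b', hb'⟩ := key s
  refine ⟨a', b', ?_, ?_⟩
  · have h1 : LocSep.prodMap K Ω (Z.presheaf.stalk (q y')) (Z'.presheaf.stalk y') b' = algebraMap _ _ s.1 := hb'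
    rw [h1]
    exact IsLocalization.map_units (Z'.presheaf.stalk y') s
  · have h1 : LocSep.prodMap K Ω (Z.presheaf.stalk (q y')) (Z'.presheaf.stalk y') b' = algebraMap _ _ s.1 := hb'
    have h2 : LocSep.prodMap K Ω (Z.presheaf.stalk (q y')) (Z'.presheaf.stalk y') a' = algebraMap _ _ a := ha'
    rw [h1, h2]
    exact has

include sq in
/-- **Stalks of a separable algebraic base change at points over DVR points.** -/
theorem main [Algebra.IsSeparable K Ω] (y' : Z') [IsDomain (Z.presheaf.stalk (q y'))]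
    (hdvr : IsDiscreteValuationRing (Z.presheaf.stalk (q y'))) :
    ∃ _ : IsDomain (Z'.presheaf.stalk y'), IsDiscreteValuationRing (Z'.presheaf.stalk y') ∧
        letI := (q.stalkMap y').hom.toAlgebra
        EtRam.IsWeaklyUnramified (Z.presheaf.stalk (q y')) (Z'.presheaf.stalk y') ∧
        ∀ [IsLocalHom (algebraMap (Z.presheaf.stalk (q y')) (Z'.presheaf.stalk y'))],
          Algebra.IsSeparable (ResidueField (Z.presheaf.stalk (q y'))) (ResidueField (Z'.presheaf.stalk y')) := by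
  let _ : Algebra K (Z.presheaf.stalk (q y')) := (toStalk p (q y')).hom.toAlgebra
  let _ : Algebra Ω (Z'.presheaf.stalk y') := (toStalk p' y').hom.toAlgebra
  let _ : Algebra K (Z'.presheaf.stalk y') := ((toStalk p' y').hom.comp (algebraMap K Ω)).toAlgebra
  let _ : Algebra (Z.presheaf.stalk (q y')) (Z'.presheaf.stalk y') := (q.stalkMap y').hom.toAlgebra
  have _ : IsScalarTower K Ω (Z'.presheaf.stalk y') := IsScalarTower.of_algebraMap_eq' rfl
  have _ : IsScalarTower K (Z.presheaf.stalk (q y')) (Z'.presheaf.stalk y') :=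
    IsScalarTower.of_algebraMap_eq' (congrArg CommRingCat.Hom.hom (toStalk_comp p p' q sq y')).symm
  have hfrac := exists_frac p p' q sq y'
  have hloc : IsLocalHom (algebraMap (Z.presheaf.stalk (q y')) (Z'.presheaf.stalk y')) :=
    inferInstanceAs (IsLocalHom (q.stalkMap y').hom)
  have hflat : Flat q := MorphismProperty.of_isPullback sq.flip (by
    rw [Flat.SpecMap_iff]
    exact RingHom.flat_algebraMap_iff.mpr inferInstance)
  have : Module.Flat (Z.presheaf.stalk (q y')) (Z'.presheaf.stalk y') :=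
    RingHom.flat_algebraMap_iff.mp (Flat.stalkMap q y')
  have hdom := LocSep.isDomain K Ω _ _ hfrac
  exact ⟨hdom, LocSep.isDiscreteValuationRing K Ω _ _ hfrac, LocSep.isWeaklyUnramified K Ω _ _ hfrac,
    fun {_} => LocSep.isSeparable_residueField K Ω _ _ hfrac⟩

end Groth.Agent.Pi1.H392.StalkSep
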