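import Groth.Prelude.Def_SGA1t
import Groth.Agent.Pi1.H392.PtTransfer
import Groth.Agent.Pi1.H392.StalkSep
import Mathlib.FieldTheory.IsSepClosed

/-!
# Tameness over geometric fibres implies tameness over all fibres

`SGA1t.IsRelTameOver f φ V T` is a condition on the geometric fibres (over separably closed fields). The same
condition then holds on the fibre `X ×_S Spec K` for every field-valued point `Spec K ⟶ S` over `T`.
-/

set_option autoImplicit false
universe u

open CategoryTheory CategoryTheory.Limits AlgebraicGeometry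

namespace Groth.Agent.Pi1.H392.TameFibre

open PtMap

/-- The condition of `SGA1t.IsRelTameOver` on one fibre. -/
def TameOn {X Y : Scheme.{u}} (g : Y ⟶ X) : Prop :=
  ∀ (y : X) [IsDomain (X.presheaf.stalk y)], IsDiscreteValuationRing (X.presheaf.stalk y) →
    ∀ (w : Y) (h : g.base w ⤳ y), g.base w ≠ y → EtRam.IsTamelyRamified (X.presheaf.stalk y) (resMap g w y h)

theorem isRelTameOver_iff {X S : Scheme.{u}} (f : X ⟶ S) {r : ℕ} (φ : Fin r → Γ(X, ⊤))
    (V : FEt.Cat (SGA1t.compl φ : Scheme.{u})) (T : Set S) :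
    SGA1t.IsRelTameOver f φ V T ↔
      ∀ (Ω : Type u) [Field Ω] [IsSepClosed Ω] (σ : Spec (CommRingCat.of Ω) ⟶ S),
        (∀ z : Spec (CommRingCat.of Ω), σ.base z ∈ T) →
        TameOn (pullback.snd (V.hom ≫ (SGA1t.compl φ).ι) (pullback.fst f σ)) :=
  ⟨fun H Ω _ _ σ hσ y _ hy w h hne => H Ω σ hσ y hy w h hne,
    fun H Ω _ _ σ hσ y _ hy w h hne => H Ω σ hσ y hy w h hne⟩

/-- `TameOn` descends along the base change by a separable algebraic field extension. -/
theorem tameOn_of_sep {K Ω : Type u} [Field K] [Field Ω] [Algebra K Ω] [Algebra.IsSeparable K Ω]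
    {X Y X' Y' : Scheme.{u}} (g : Y ⟶ X) (g' : Y' ⟶ X') (q : X' ⟶ X) (qY : Y' ⟶ Y) [Etale g]
    (sqg : IsPullback qY g' g q) (p : X ⟶ Spec (CommRingCat.of K)) (p' : X' ⟶ Spec (CommRingCat.of Ω))
    (sq : IsPullback q p' p (Spec.map (CommRingCat.ofHom (algebraMap K Ω)))) (H : TameOn g') : TameOn g := by
  have hint : IsIntegralHom (Spec.map (CommRingCat.ofHom (algebraMap K Ω))) := by
    rw [IsIntegralHom.SpecMap_iff]
    exact Algebra.IsIntegral.isIntegral (R := K) (A := Ω)
  have hsurj : Surjective (Spec.map (CommRingCat.ofHom (algebraMap K Ω))) := by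
    refine ⟨fun z => ⟨default, ?_⟩⟩
    exact Subsingleton.elim _ _
  have hq : IsIntegralHom q := MorphismProperty.of_isPullback sq.flip hint
  have hqs : Surjective q := MorphismProperty.of_isPullback sq.flip hsurj
  have hqY : Surjective qY := MorphismProperty.of_isPullback sqg.flip hqs
  have hg' : Etale g' := MorphismProperty.of_isPullback sqg ‹Etale g›
  intro y _ hy w h hne
  exact PtTransfer.tame_descend g g' q qY sqg.w hqY.surj
    (fun y' _ hy' => StalkSep.main p p' q sq y' hy') H y hy w h hne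

/-- **Tameness over all fibres.** -/
theorem tame_fibre {X S : Scheme.{u}} (f : X ⟶ S) {r : ℕ} (φ : Fin r → Γ(X, ⊤))
    (V : FEt.Cat (SGA1t.compl φ : Scheme.{u})) (T : Set S) (H : SGA1t.IsRelTameOver f φ V T)
    (K : Type u) [Field K] (σ : Spec (CommRingCat.of K) ⟶ S) (hσ : ∀ z : Spec (CommRingCat.of K), σ.base z ∈ T) :
    TameOn (pullback.snd (V.hom ≫ (SGA1t.compl φ).ι) (pullback.fst f σ)) := by
  rw [isRelTameOver_iff] at H
  let Ω := SeparableClosure K
  let i : Spec (CommRingCat.of Ω) ⟶ Spec (CommRingCat.of K) := Spec.map (CommRingCat.ofHom (algebraMap K Ω))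
  have H' := H Ω (i ≫ σ) (fun z => by
    rw [Scheme.Hom.comp_base]; exact hσ _)
  let q : pullback f (i ≫ σ) ⟶ pullback f σ :=
    pullback.lift (pullback.fst _ _) (pullback.snd _ _ ≫ i) (by rw [pullback.condition, Category.assoc])
  have hqf : q ≫ pullback.fst f σ = pullback.fst f (i ≫ σ) := pullback.lift_fst _ _ _
  have sq : IsPullback q (pullback.snd f (i ≫ σ)) (pullback.snd f σ) i := by
    refine IsPullback.of_right ?_ (pullback.lift_snd _ _ _) (IsPullback.of_hasPullback f σ)
    rw [hqf]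
    exact IsPullback.of_hasPullback f (i ≫ σ)
  let g₀ := V.hom ≫ (SGA1t.compl φ).ι
  let qY : pullback g₀ (pullback.fst f (i ≫ σ)) ⟶ pullback g₀ (pullback.fst f σ) :=
    pullback.lift (pullback.fst _ _) (pullback.snd _ _ ≫ q)
      (by rw [pullback.condition, Category.assoc, hqf])
  have sqg : IsPullback qY (pullback.snd g₀ (pullback.fst f (i ≫ σ))) (pullback.snd g₀ (pullback.fst f σ)) q := by
    refine IsPullback.of_right ?_ (pullback.lift_snd _ _ _) (IsPullback.of_hasPullback g₀ (pullback.fst f σ))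
    rw [pullback.lift_fst, hqf]
    exact IsPullback.of_hasPullback g₀ (pullback.fst f (i ≫ σ))
  have hV : Etale V.hom := V.prop.2
  exact tameOn_of_sep _ _ q qY sqg (pullback.snd f σ) (pullback.snd f (i ≫ σ)) sq H'

end Groth.Agent.Pi1.H392.TameFibre
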