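import Groth.Agent.Pi1.H391.Stmts
import Groth.Agent.Pi1.H392.TameFibre

/-!
# Ring form of the tameness hypothesis of S3689
-/

set_option autoImplicit false
universe u

open CategoryTheory CategoryTheory.Limits AlgebraicGeometry TensorProduct IsLocalRing

namespace Groth.Agent.Pi1.H392.TameRing

open PtMap TameFibre TameTransfer Groth.Agent.Etalg.RamBasic

/-- the ring map from the residue field of the image point. -/
noncomputable def fromRes {L : Type u} [Field L] {Y : Scheme.{u}} (a : Spec (CommRingCat.of L) ⟶ Y) :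
    Y.residueField (a (closedPoint L)) →+* L :=
  (Y.descResidueField (Scheme.stalkClosedPointTo a)).hom

theorem Spec_map_fromRes {L : Type u} [Field L] {Y : Scheme.{u}} (a : Spec (CommRingCat.of L) ⟶ Y) :
    Spec.map (CommRingCat.ofHom (fromRes a)) ≫ Y.fromSpecResidueField (a (closedPoint L)) = a :=
  Scheme.descResidueField_stalkClosedPointTo_fromSpecResidueField L Y a

/-- global sections evaluated at a field-valued point lie in the image of the residue field. -/
theorem appTop_mem_range {L : Type u} [Field L] {Y : Scheme.{u}} (a : Spec (CommRingCat.of L) ⟶ Y)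
    (c : Γ(Y, ⊤)) : (Scheme.ΓSpecIso (CommRingCat.of L)).hom.hom (a.appTop.hom c) ∈ (fromRes a).fieldRange := by
  have h1 : a.appTop ≫ (Scheme.ΓSpecIso (CommRingCat.of L)).hom =
      (Y.fromSpecResidueField (a (closedPoint L))).appTop ≫ (Scheme.ΓSpecIso _).hom ≫
        CommRingCat.ofHom (fromRes a) := by
    have h2 : a.appTop = (Y.fromSpecResidueField (a (closedPoint L))).appTop ≫
        (Spec.map (CommRingCat.ofHom (fromRes a))).appTop := by
      rw [← Scheme.Hom.comp_appTop]
      exact congrArg (fun b : Spec (CommRingCat.of L) ⟶ Y => b.appTop) (Spec_map_fromRes a).symm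
    rw [h2, Category.assoc]
    exact congrArg (fun t => (Y.fromSpecResidueField (a (closedPoint L))).appTop ≫ t)
      (Scheme.ΓSpecIso_naturality (CommRingCat.ofHom (fromRes a)))
  exact ⟨_, (ConcreteCategory.congr_hom h1 c).symm⟩

theorem fromRes_comp_resMap {Y Z : Scheme.{u}} (g : Y ⟶ Z) {B : Type u} [CommRing B] (z : Z)
    (θ : Z.presheaf.stalk z ⟶ CommRingCat.of B) {L : Type u} [Field L] (gL : B →+* L)
    (a : Spec (CommRingCat.of L) ⟶ Y)
    (ha : a ≫ g = Spec.map (CommRingCat.ofHom gL) ≫ Spec.map θ ≫ Z.fromSpecStalk z)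
    (h : g.base (a (closedPoint L)) ⤳ z) :
    (fromRes a).comp (resMap g (a (closedPoint L)) z h) = gL.comp θ.hom := by
  have h1 : CommRingCat.ofHom ((fromRes a).comp (resMap g (a (closedPoint L)) z h)) =
      CommRingCat.ofHom (gL.comp θ.hom) := by
    apply Spec.map_injective
    rw [← cancel_mono (Z.fromSpecStalk z)]
    have e1 : CommRingCat.ofHom ((fromRes a).comp (resMap g (a (closedPoint L)) z h)) =
      resHom g (a (closedPoint L)) z h ≫ CommRingCat.ofHom (fromRes a) := rfl
    have e2 : CommRingCat.ofHom (gL.comp θ.hom) = θ ≫ CommRingCat.ofHom gL := rfl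
    rw [e1, e2, Spec.map_comp, Spec.map_comp, Category.assoc, Category.assoc, Spec_map_resHom,
      ← ha, ← Category.assoc]
    congr 1
    exact Spec_map_fromRes a
  exact congrArg CommRingCat.Hom.hom h1

/-- **Transport of `TameOn` to a ring isomorphic to a stalk and a field isomorphic to a residue field.** -/
theorem isTamelyRamified {Y Z : Scheme.{u}} (g : Y ⟶ Z) [Etale g] (H : TameOn g)
    {B : Type u} [CommRing B] [IsDomain B] [IsDiscreteValuationRing B] (z : Z)
    (θ : Z.presheaf.stalk z ⟶ CommRingCat.of B) [IsIso θ] {L : Type u} [Field L] (gL : B →+* L)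
    (hinj : Function.Injective gL) (a : Spec (CommRingCat.of L) ⟶ Y)
    (ha : a ≫ g = Spec.map (CommRingCat.ofHom gL) ≫ Spec.map θ ≫ Z.fromSpecStalk z)
    (hgen : ∀ F : Subfield L, (∀ b : B, gL b ∈ F) →
      (∀ c : Γ(Y, ⊤), (Scheme.ΓSpecIso (CommRingCat.of L)).hom.hom (a.appTop.hom c) ∈ F) → F = ⊤) :
    EtRam.IsTamelyRamified B gL := by
  -- the stalk is a DVR
  let e : Z.presheaf.stalk z ≃+* B := (asIso θ).commRingCatIsoToRingEquiv
  have he : ∀ s, e s = θ.hom s := fun _ => rfl
  have hdom : IsDomain (Z.presheaf.stalk z) := e.injective.isDomain e.toRingHom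
  have hdvr : IsDiscreteValuationRing (Z.presheaf.stalk z) :=
    IsDiscreteValuationRing.RingEquivClass.isDiscreteValuationRing e.symm
  set w : Y := a (closedPoint L) with hw
  -- the images of the points of `Spec B`
  let β : Spec (CommRingCat.of B) ⟶ Z := Spec.map θ ≫ Z.fromSpecStalk z
  have hβ : β (closedPoint B) = z := by
    change (Spec.map θ ≫ Z.fromSpecStalk z) (closedPoint B) = z
    rw [Scheme.Hom.comp_apply]
    have h1 : (Spec.map θ) (closedPoint B) = closedPoint _ := by
      have : IsLocalHom θ.hom := isLocalHom_of_isIso θ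
      exact Spec_closedPoint (f := θ)
    rw [h1, Scheme.fromSpecStalk_closedPoint]
  have hgw : g w = β (Spec.map (CommRingCat.ofHom gL) (closedPoint L)) := by
    rw [hw, ← Scheme.Hom.comp_apply, ha, ← Scheme.Hom.comp_apply]
  have h : g.base w ⤳ z := by
    rw [hgw, ← hβ]
    exact (specializes_closedPoint _).map β.continuous
  have hne : g.base w ≠ z := by
    rw [hgw, ← hβ]
    intro heq
    have hβinj : Function.Injective β := by
      change Function.Injective (Spec.map θ ≫ Z.fromSpecStalk z)
      exact (Spec.map θ ≫ Z.fromSpecStalk z).isEmbedding.injective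
    have h1 := hβinj heq
    obtain ⟨ϖ, hϖ⟩ := IsDiscreteValuationRing.exists_irreducible B
    have h2 : ϖ ∈ (closedPoint B).asIdeal := (mem_maximalIdeal _).mpr hϖ.not_isUnit
    rw [← h1] at h2
    have h3 : gL ϖ ∈ (closedPoint L).asIdeal := h2
    have h4 : ¬ IsUnit (gL ϖ) := (mem_maximalIdeal _).mp h3
    exact h4 ((map_ne_zero_iff gL hinj).mpr hϖ.ne_zero).isUnit
  have htame := H z hdvr w h hne
  -- the maps
  have hcomm : (fromRes a).comp (resMap g w z h) = gL.comp θ.hom := fromRes_comp_resMap g z θ gL a ha h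
  have hsurj : Function.Surjective (fromRes a) := by
    have h1 := hgen (fromRes a).fieldRange (fun b => ?_) (appTop_mem_range a)
    · intro x
      have : x ∈ (fromRes a).fieldRange := by rw [h1]; trivial
      exact this
    · have h2 : θ.hom (e.symm b) = b := e.apply_symm_apply b
      refine ⟨resMap g w z h (e.symm b), ?_⟩
      have h3 := RingHom.congr_fun hcomm (e.symm b)
      rw [RingHom.comp_apply, RingHom.comp_apply, h2] at h3
      exact h3
  let lam : Y.residueField w →+* L := fromRes a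
  let eL : Y.residueField w ≃+* L := RingEquiv.ofBijective lam ⟨lam.injective, hsurj⟩
  rw [isTamelyRamified_iff]
  intro W hW
  let W' : ValuationSubring (Y.residueField w) := W.comap lam
  let _ : Algebra B (Z.presheaf.stalk z) := e.symm.toRingHom.toAlgebra
  have hloc : IsLocalHom (algebraMap B (Z.presheaf.stalk z)) :=
    ⟨fun b hb => (MulEquiv.isUnit_map e.symm).mp hb⟩
  have hcomm' : (resMap g w z h).comp (algebraMap B (Z.presheaf.stalk z)) = eL.symm.toRingHom.comp gL := by
    ext b
    apply eL.injective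
    have h1 := RingHom.congr_fun hcomm (e.symm b)
    have h2 : θ.hom (e.symm b) = b := e.apply_symm_apply b
    change lam (resMap g w z h (e.symm b)) = eL (eL.symm (gL b))
    rw [eL.apply_symm_apply]
    change lam (resMap g w z h (e.symm b)) = gL (θ.hom (e.symm b)) at h1
    rw [h1, h2]
  have hdomW' : EtRam.Dominates (Z.presheaf.stalk z) (resMap g w z h) W' := by
    rw [← dominates_comp_iff, hcomm]
    refine ⟨fun s => hW.1 _, fun s hs => hW.2 _ ?_⟩
    have : IsLocalHom θ.hom := isLocalHom_of_isIso θ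
    exact ((local_hom_TFAE θ.hom).out 0 1 rfl rfl).mp this ⟨s, hs, rfl⟩
  have hdvrW' := PtTransfer.isDVR_of_dominates g w z h hne W' hdomW'
  refine tameVal_comap eL.symm.toRingHom gL (resMap g w z h) ?_ ?_ hinj
    (PtTransfer.injective_resMap g w z h hne) hcomm' W' hdomW' hdvrW'
    ((isTamelyRamified_iff _ _).mp htame W' hdomW') W ?_ hW
  · -- weakly unramified
    change (maximalIdeal B).map e.symm.toRingHom = maximalIdeal (Z.presheaf.stalk z)
    apply le_antisymm
    · exact ((local_hom_TFAE e.symm.toRingHom).out 0 2 rfl rfl).mp hloc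
    · intro s hs
      have h1 : e s ∈ maximalIdeal B := by
        rw [mem_maximalIdeal, mem_nonunits_iff] at hs ⊢
        exact fun hu => hs ((MulEquiv.isUnit_map e).mp hu)
      have h2 := Ideal.mem_map_of_mem e.symm.toRingHom h1
      have h3 : e.symm.toRingHom (e s) = s := e.symm_apply_apply s
      rwa [h3] at h2
  · refine ⟨fun x => ?_⟩
    obtain ⟨s, rfl⟩ := residue_surjective x
    have h1 : residue (Z.presheaf.stalk z) s =
        algebraMap (ResidueField B) (ResidueField (Z.presheaf.stalk z)) (residue B (e s)) := by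
      change _ = residue (Z.presheaf.stalk z) (e.symm (e s))
      rw [e.symm_apply_apply]
    rw [h1]
    exact isSeparable_algebraMap _
  · ext x
    change lam (eL.symm x) ∈ W ↔ x ∈ W
    have h1 : lam (eL.symm x) = x := eL.apply_symm_apply x
    rw [h1]

/-- a point of `S` given by a minimal prime of a local ring of `S` is maximal. -/
theorem eq_of_specializes_of_minimal {S : Scheme.{u}} (s : S) (P : Spec (S.presheaf.stalk s))
    (hP : P.asIdeal ∈ minimalPrimes (S.presheaf.stalk s)) (s' : S) (h : s' ⤳ S.fromSpecStalk s P) :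
    s' = S.fromSpecStalk s P := by
  have h1 : S.fromSpecStalk s P ⤳ s := by
    have : S.fromSpecStalk s P ∈ Set.range (S.fromSpecStalk s) := ⟨P, rfl⟩
    rwa [Scheme.range_fromSpecStalk] at this
  have h2 : s' ∈ Set.range (S.fromSpecStalk s) := by
    rw [Scheme.range_fromSpecStalk]
    exact h.trans h1
  obtain ⟨P', rfl⟩ := h2
  have h3 : P' ⤳ P := (S.fromSpecStalk s).isEmbedding.isInducing.specializes_iff.mp h
  have h4 : P'.asIdeal ≤ P.asIdeal := (PrimeSpectrum.le_iff_specializes P' P).mpr h3
  have h5 : P.asIdeal ≤ P'.asIdeal := hP.2 ⟨P'.isPrime, bot_le⟩ h4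
  have h6 : P' = P := PrimeSpectrum.ext (le_antisymm h4 h5)
  rw [h6]

/-- the fibre product over a monomorphism, for affine schemes. -/
theorem isPullback_tensor {S : Scheme.{u}} (O R Ω : Type u) [CommRing O] [CommRing R] [CommRing Ω]
    [Algebra O R] [Algebra O Ω] (m : Spec (CommRingCat.of O) ⟶ S) [Mono m] :
    IsPullback (Spec.map (CommRingCat.ofHom (Algebra.TensorProduct.includeLeftRingHom : R →+* R ⊗[O] Ω)))
      (Spec.map (CommRingCat.ofHom (Algebra.TensorProduct.includeRight : Ω →ₐ[O] R ⊗[O] Ω).toRingHom))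
      (Spec.map (CommRingCat.ofHom (algebraMap O R)) ≫ m)
      (Spec.map (CommRingCat.ofHom (algebraMap O Ω)) ≫ m) := by
  have h := isPullback_SpecMap_of_isPushout _ _ _ _ (CommRingCat.isPushout_tensorProduct O R Ω)
  refine ⟨⟨by rw [reassoc_of% h.w]⟩, ⟨?_⟩⟩
  exact PullbackCone.isLimitOfCompMono _ _ m _ h.isLimit

/-- the stalk of `Spec A` at `p` and a localization `B` of `A` at `p`. -/
theorem exists_stalkIso (A : Type u) [CommRing A] (p : Spec (CommRingCat.of A)) (B : Type u) [CommRing B]
    [Algebra A B] [IsLocalization.AtPrime B p.asIdeal] :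
    ∃ θ : (Spec (CommRingCat.of A)).presheaf.stalk p ⟶ CommRingCat.of B,
      IsIso θ ∧ Spec.map θ ≫ (Spec (CommRingCat.of A)).fromSpecStalk p =
        Spec.map (CommRingCat.ofHom (algebraMap A B)) := by
  let _ : Algebra A ((Spec (CommRingCat.of A)).presheaf.stalk p) := StructureSheaf.stalkAlgebra A p
  have h1 : IsLocalization.AtPrime ((Spec (CommRingCat.of A)).presheaf.stalk p) p.asIdeal :=
    StructureSheaf.IsLocalization.to_stalk A p
  let e : (Spec (CommRingCat.of A)).presheaf.stalk p ≃ₐ[A] B :=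
    IsLocalization.algEquiv p.asIdeal.primeCompl ((Spec (CommRingCat.of A)).presheaf.stalk p) B
  let θ : (Spec (CommRingCat.of A)).presheaf.stalk p ⟶ CommRingCat.of B := CommRingCat.ofHom e.toRingEquiv.toRingHom
  have hθ : IsIso θ := by
    rw [ConcreteCategory.isIso_iff_bijective]
    exact e.bijective
  refine ⟨θ, hθ, ?_⟩
  have h2 : (Spec (CommRingCat.of A)).fromSpecStalk p = Spec.map (StructureSheaf.toStalk A p) :=
    Spec.fromSpecStalk_eq' _ _
  have h3 : CommRingCat.ofHom (algebraMap A B) = StructureSheaf.toStalk A p ≫ θ := by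
    ext a
    exact (e.commutes a).symm
  rw [h2, h3]
  exact (Spec.map_comp _ _).symm

theorem exists_stalkIso' (A : Type u) [CommRing A] (p : Spec (CommRingCat.of A)) (B : Type u) [CommRing B]
    [Algebra A B] [IsLocalization.AtPrime B p.asIdeal] {Z : Scheme.{u}} (c : Spec (CommRingCat.of A) ⟶ Z)
    [IsIso c] :
    ∃ θ : Z.presheaf.stalk (c p) ⟶ CommRingCat.of B,
      IsIso θ ∧ Spec.map θ ≫ Z.fromSpecStalk (c p) =
        Spec.map (CommRingCat.ofHom (algebraMap A B)) ≫ c := by
  obtain ⟨θ₀, hθ₀, hθ₀'⟩ := exists_stalkIso A p B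
  refine ⟨c.stalkMap p ≫ θ₀, inferInstance, ?_⟩
  rw [Spec.map_comp, Category.assoc, Scheme.SpecMap_stalkMap_fromSpecStalk, ← Category.assoc, hθ₀']

/-- **(D1)** -/
theorem tameRing : H391.Stmts.TameRing.{u} := by
  intro X S f r φ x R _ _ _ _ _ V₁ htame _ hOR Ω _ _ _ hmin B _ _ _ _ y _ _ K _ _ _ L _ _ v hv hgen
  let O := S.presheaf.stalk (f x)
  let m : Spec (CommRingCat.of O) ⟶ S := S.fromSpecStalk (f x)
  have hm : Mono m := inferInstanceAs (Mono (S.fromSpecStalk (f x)))
  have hfac : Hens2.specOf X x R ≫ f = Spec.map (CommRingCat.ofHom (algebraMap O R)) ≫ m := by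
    have h1 : CommRingCat.ofHom (algebraMap O R) = f.stalkMap x ≫ CommRingCat.ofHom (algebraMap (X.presheaf.stalk x) R) := by
      rw [hOR]; rfl
    rw [h1, Spec.map_comp, Category.assoc, Category.assoc]
    congr 1
    exact (Scheme.SpecMap_stalkMap_fromSpecStalk f).symm
  let σ : Spec (CommRingCat.of Ω) ⟶ S := Spec.map (CommRingCat.ofHom (algebraMap O Ω)) ≫ m
  have hσ : ∀ z : Spec (CommRingCat.of Ω), σ.base z ∈ {s : S | ∀ s' : S, s' ⤳ s → s' = s} := by
    intro z s' hs'
    refine eq_of_specializes_of_minimal (f x) (Spec.map (CommRingCat.ofHom (algebraMap O Ω)) z) ?_ s' hs'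
    have h1 : (Spec.map (CommRingCat.ofHom (algebraMap O Ω)) z).asIdeal = RingHom.ker (algebraMap O Ω) := by
      have h2 : z = (⊥ : PrimeSpectrum Ω) := Subsingleton.elim _ _
      rw [h2]
      rfl
    rw [h1]
    exact hmin
  have H : TameOn (pullback.snd (V₁.hom ≫ (SGA1t.compl (fun i => (Hens2.specOf X x R).appTop (φ i))).ι)
      (pullback.fst (Hens2.specOf X x R ≫ f) σ)) := (isRelTameOver_iff _ _ _ _).mp htame Ω σ hσ
  have sq := isPullback_tensor O R Ω m
  rw [← hfac] at sq
  let c := sq.isoPullback.hom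
  have hc : c ≫ pullback.fst (Hens2.specOf X x R ≫ f) σ =
      Spec.map (CommRingCat.ofHom (Algebra.TensorProduct.includeLeftRingHom : R →+* R ⊗[O] Ω)) :=
    sq.isoPullback_hom_fst
  let yp : Spec (CommRingCat.of (R ⊗[O] Ω)) := (⟨y, inferInstance⟩ : PrimeSpectrum (R ⊗[O] Ω))
  have hyp : IsLocalization.AtPrime B yp.asIdeal := ‹IsLocalization.AtPrime B y›
  obtain ⟨θ, hθ, hθ'⟩ := exists_stalkIso' (R ⊗[O] Ω) yp B c
  have hV : Etale V₁.hom := V₁.prop.2
  let gL : B →+* L := (algebraMap K L).comp (algebraMap B K)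
  let a : Spec (CommRingCat.of L) ⟶ pullback (V₁.hom ≫ (SGA1t.compl (fun i => (Hens2.specOf X x R).appTop (φ i))).ι)
      (pullback.fst (Hens2.specOf X x R ≫ f) σ) :=
    pullback.lift v (Spec.map (CommRingCat.ofHom gL) ≫ Spec.map (CommRingCat.ofHom (algebraMap (R ⊗[O] Ω) B)) ≫ c)
      (by
        rw [Category.assoc, Category.assoc, hc, hv, ← Spec.map_comp, ← Spec.map_comp]
        rfl)
  refine isTamelyRamified _ H (c yp) θ gL ((algebraMap K L).injective.comp (IsFractionRing.injective B K)) a ?_ ?_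
  · rw [hθ']
    exact pullback.lift_snd _ _ _
  · intro F hF1 hF2
    have hK : ∀ k : K, algebraMap K L k ∈ F := by
      intro k
      obtain ⟨b, b', hb', rfl⟩ := IsFractionRing.div_surjective B k
      rw [map_div₀]
      exact F.div_mem (hF1 b) (hF1 b')
    let F' : Subalgebra K L := { F.toSubring with algebraMap_mem' := hK }
    have h1 : (⊤ : Subalgebra K L) ≤ F' := by
      rw [← hgen]
      refine Algebra.adjoin_le ?_
      rintro _ ⟨c', rfl⟩
      have h2 := hF2 ((pullback.fst (V₁.hom ≫ (SGA1t.compl (fun i => (Hens2.specOf X x R).appTop (φ i))).ι)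
        (pullback.fst (Hens2.specOf X x R ≫ f) σ)).appTop.hom c')
      have h3 : a.appTop.hom ((pullback.fst (V₁.hom ≫ (SGA1t.compl (fun i => (Hens2.specOf X x R).appTop (φ i))).ι)
        (pullback.fst (Hens2.specOf X x R ≫ f) σ)).appTop.hom c') = v.appTop.hom c' := by
        have h4 : (pullback.fst (V₁.hom ≫ (SGA1t.compl (fun i => (Hens2.specOf X x R).appTop (φ i))).ι)
          (pullback.fst (Hens2.specOf X x R ≫ f) σ)).appTop ≫ a.appTop = v.appTop := by
          rw [← Scheme.Hom.comp_appTop]
          exact congrArg (fun b : Spec (CommRingCat.of L) ⟶ V₁.left => b.appTop) (pullback.lift_fst _ _ _)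
        exact ConcreteCategory.congr_hom h4 c'
      rw [h3] at h2
      exact h2
    rw [eq_top_iff]
    intro l _
    exact h1 (Algebra.mem_top : l ∈ (⊤ : Subalgebra K L))

end Groth.Agent.Pi1.H392.TameRing
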