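import Groth.Agent.Etalg.RamTower
import Mathlib.FieldTheory.SeparableDegree
import Mathlib.RingTheory.Valuation.ValuationRing

/-!
# Descending tameness along a weakly unramified extension with separable residue field extension
-/

set_option autoImplicit false
universe u

open IsLocalRing EtRam Groth.Agent.Etalg.RamBasic Groth.Agent.Etalg.RamTower

namespace Groth.Agent.Pi1.H392.TameTransfer

/-- A valuation ring, not a field, with an injective local homomorphism to a DVR is a DVR. -/
theorem isDVR_of_isLocalHom {W W' : Type u} [CommRing W] [IsDomain W] [ValuationRing W]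
    [CommRing W'] [IsDomain W'] [IsDiscreteValuationRing W'] (i : W →+* W') [IsLocalHom i]
    (hi : Function.Injective i) (hW : ∃ a : W, a ≠ 0 ∧ ¬ IsUnit a) : IsDiscreteValuationRing W := by
  classical
  let v : W → ℕ := fun a => (IsDiscreteValuationRing.addVal W' (i a)).toNat
  have hv : ∀ a : W, a ≠ 0 → IsDiscreteValuationRing.addVal W' (i a) = (v a : ℕ∞) := by
    intro a ha
    have h1 : i a ≠ 0 := by rwa [Ne, map_eq_zero_iff i hi]
    have h2 : IsDiscreteValuationRing.addVal W' (i a) ≠ ⊤ := by
      rwa [Ne, IsDiscreteValuationRing.addVal_eq_top_iff]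
    exact (ENat.natCast_toNat h2).symm
  have hmul : ∀ a b : W, a ≠ 0 → b ≠ 0 → v (a * b) = v a + v b := by
    intro a b ha hb
    have h1 := hv (a * b) (mul_ne_zero ha hb)
    rw [map_mul, IsDiscreteValuationRing.addVal_mul, hv a ha, hv b hb] at h1
    exact_mod_cast h1.symm
  have hunit : ∀ a : W, a ≠ 0 → (v a = 0 ↔ IsUnit a) := by
    intro a ha
    have h1 : IsUnit (i a) ↔ IsDiscreteValuationRing.addVal W' (i a) = 0 :=
      IsDiscreteValuationRing.addVal_eq_zero_iff.symm
    rw [hv a ha] at h1
    constructor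
    · intro h
      exact isUnit_of_map_unit i a (h1.mpr (by exact_mod_cast h))
    · intro h
      exact_mod_cast h1.mp (h.map i)
  let P : ℕ → Prop := fun n => ∃ a : W, a ≠ 0 ∧ ¬ IsUnit a ∧ v a = n
  have hP : ∃ n, P n := by
    obtain ⟨a, ha, hu⟩ := hW
    exact ⟨v a, a, ha, hu, rfl⟩
  obtain ⟨π, hπ0, hπu, hπv⟩ := Nat.find_spec hP
  have hmin : ∀ a : W, a ≠ 0 → ¬ IsUnit a → v π ≤ v a := by
    intro a ha hu
    rw [hπv]
    exact Nat.find_min' hP ⟨a, ha, hu, rfl⟩
  have hvπ : v π ≠ 0 := fun h => hπu ((hunit π hπ0).mp h)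
  have hdvd : ∀ a : W, a ≠ 0 → ¬ IsUnit a → π ∣ a := by
    intro a ha hu
    rcases ValuationRing.dvd_total π a with h | ⟨c, hc⟩
    · exact h
    · have hc0 : c ≠ 0 := by rintro rfl; exact hπ0 (by rw [hc, mul_zero])
      have h1 := hmul a c ha hc0
      rw [← hc] at h1
      have h2 := hmin a ha hu
      have h3 : v c = 0 := by omega
      obtain ⟨w, rfl⟩ := (hunit c hc0).mp h3
      exact ⟨(w⁻¹ : Wˣ), by rw [hc, mul_assoc, Units.mul_inv, mul_one]⟩
  have hirr : Irreducible π := by
    refine ⟨hπu, fun a b hab => ?_⟩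
    by_contra hcon
    push Not at hcon
    have ha0 : a ≠ 0 := by rintro rfl; exact hπ0 (by rw [hab, zero_mul])
    have hb0 : b ≠ 0 := by rintro rfl; exact hπ0 (by rw [hab, mul_zero])
    have h1 := hmul a b ha0 hb0
    rw [← hab] at h1
    have h2 := hmin a ha0 hcon.1
    have h3 := hmin b hb0 hcon.2
    omega
  refine IsDiscreteValuationRing.ofHasUnitMulPowIrreducibleFactorization ⟨π, hirr, fun {x} hx => ?_⟩
  have key : ∀ (n : ℕ) (x : W), x ≠ 0 → v x ≤ n → ∃ m : ℕ, Associated (π ^ m) x := by
    intro n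
    induction n with
    | zero =>
      intro x hx hn
      refine ⟨0, ?_⟩
      rw [pow_zero]
      exact (associated_one_iff_isUnit.mpr ((hunit x hx).mp (by omega))).symm
    | succ n ih =>
      intro x hx hn
      by_cases hu : IsUnit x
      · exact ⟨0, by rw [pow_zero]; exact (associated_one_iff_isUnit.mpr hu).symm⟩
      · obtain ⟨c, rfl⟩ := hdvd x hx hu
        have hc0 : c ≠ 0 := by rintro rfl; exact hx (mul_zero _)
        have h1 := hmul π c hπ0 hc0
        obtain ⟨m, hm⟩ := ih c hc0 (by omega)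
        exact ⟨m + 1, by rw [pow_succ']; exact hm.mul_left π⟩
  exact key _ x hx le_rfl

/-- The condition in `EtRam.IsTamelyRamified` at one valuation subring. -/
def TameVal (A : Type u) [CommRing A] [IsLocalRing A] {L : Type u} [Field L] (g : A →+* L)
    (V : ValuationSubring L) (h : Dominates A g V) : Prop :=
  letI : Algebra A V := (RingHom.codRestrict g V h.1).toAlgebra
  ∀ (_ : IsLocalHom (algebraMap A V)),
    Algebra.IsSeparable (ResidueField A) (ResidueField V) ∧
    ∀ p : ℕ, p.Prime → CharP (ResidueField A) p →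
      ¬ p ∣ Ideal.ramificationIdx' (maximalIdeal A) (maximalIdeal V)

theorem isTamelyRamified_iff (A : Type u) [CommRing A] [IsLocalRing A] {L : Type u} [Field L] (g : A →+* L) :
    EtRam.IsTamelyRamified A g ↔ ∀ (V : ValuationSubring L) (h : Dominates A g V), TameVal A g V h :=
  ⟨fun H V h hl => @H V h hl, fun H V h hl => H V h hl⟩

section

variable {Λ Λ' L L' : Type u} [CommRing Λ] [IsDomain Λ] [IsDiscreteValuationRing Λ]
  [CommRing Λ'] [IsDomain Λ'] [IsDiscreteValuationRing Λ'] [Field L] [Field L']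
  [Algebra Λ Λ'] [IsLocalHom (algebraMap Λ Λ')]
  (φ : L →+* L') (g : Λ →+* L) (g' : Λ' →+* L')

/-- **Transfer of tameness.** -/
theorem tameVal_comap (hwu : IsWeaklyUnramified Λ Λ')
    (hsep : Algebra.IsSeparable (ResidueField Λ) (ResidueField Λ'))
    (hg : Function.Injective g) (hg' : Function.Injective g')
    (hcomm : g'.comp (algebraMap Λ Λ') = φ.comp g) (W' : ValuationSubring L')
    (hW' : Dominates Λ' g' W') (hdvr : IsDiscreteValuationRing W') (htame : TameVal Λ' g' W' hW')
    (W : ValuationSubring L) (hWW : W'.comap φ = W) (hW : Dominates Λ g W) : TameVal Λ g W hW := by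
  subst hWW
  let _ : Algebra Λ (W'.comap φ) := (RingHom.codRestrict g (W'.comap φ) hW.1).toAlgebra
  intro hloc
  let _ : Algebra Λ' W' := (RingHom.codRestrict g' W' hW'.1).toAlgebra
  have hloc' : IsLocalHom (algebraMap Λ' W') := Dominates.isLocalHom hW'
  let _ : Algebra (W'.comap φ) W' := (inclOfComap W' φ).toAlgebra
  have hlocW : IsLocalHom (algebraMap (W'.comap φ) W') := isLocalHom_inclOfComap W' φ
  let _ : Algebra Λ W' := ((algebraMap Λ' W').comp (algebraMap Λ Λ')).toAlgebra
  have _ : IsScalarTower Λ Λ' W' := IsScalarTower.of_algebraMap_eq' rfl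
  have hloc'' : IsLocalHom (algebraMap Λ W') := RingHom.isLocalHom_comp _ _
  have _ : IsScalarTower Λ (W'.comap φ) W' := by
    refine IsScalarTower.of_algebraMap_eq fun a => Subtype.ext ?_
    exact RingHom.congr_fun hcomm a
  have hinjΛΛ' : Function.Injective (algebraMap Λ Λ') := by
    have h1 : Function.Injective (g'.comp (algebraMap Λ Λ')) := by
      rw [hcomm]; exact φ.injective.comp hg
    exact Function.Injective.of_comp h1
  have hinj1 : Function.Injective (algebraMap Λ (W'.comap φ)) := fun a b hab =>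
    hg (congrArg Subtype.val hab)
  have hinj2 : Function.Injective (algebraMap (W'.comap φ) W') := fun a b hab =>
    Subtype.ext (φ.injective (congrArg Subtype.val hab))
  have hinj3 : Function.Injective (algebraMap Λ' W') := fun a b hab =>
    hg' (congrArg Subtype.val hab)
  have hdvrW : IsDiscreteValuationRing (W'.comap φ) := by
    refine isDVR_of_isLocalHom (algebraMap (W'.comap φ) W') hinj2 ?_
    obtain ⟨ϖ, hϖ⟩ := IsDiscreteValuationRing.exists_irreducible Λ
    refine ⟨algebraMap Λ (W'.comap φ) ϖ, ?_, ?_⟩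
    · rw [Ne, map_eq_zero_iff _ hinj1]; exact hϖ.ne_zero
    · intro hu
      exact hϖ.not_isUnit (isUnit_of_map_unit _ _ hu)
  obtain ⟨h1, h2⟩ := htame hloc'
  have he1 := ramificationIdx'_tower (A := Λ) (B := W'.comap φ) (C := W') hinj1 hinj2
  have he2 := ramificationIdx'_tower (A := Λ) (B := Λ') (C := W') hinjΛΛ' hinj3
  rw [(isWeaklyUnramified_iff hinjΛΛ').mp hwu, one_mul] at he2
  refine ⟨?_, fun p hp hchar hdvd => ?_⟩
  · have h3 : Algebra.IsSeparable (ResidueField Λ) (ResidueField W') :=
      Algebra.IsSeparable.trans _ (ResidueField Λ') _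
    exact Algebra.isSeparable_tower_bot_of_isSeparable (ResidueField Λ) (ResidueField (W'.comap φ))
      (ResidueField W')
  · refine h2 p hp (charP_of_injective_algebraMap
      (algebraMap (ResidueField Λ) (ResidueField Λ')).injective p) ?_
    rw [← he2, he1]
    exact hdvd.mul_right _

end

end Groth.Agent.Pi1.H392.TameTransfer
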